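import Cfsg.Agent.H606.OreM.Exact
import Cfsg.Agent.H681.SimpleChar

/-!
# A Sylow subgroup of prime order: real characters and exact local data (helper792)

* `even_of_real` : a real exceptional character over an invariant `θ`: `|N(P) : C(P)|` is even;
* `exists_theta` : the version of helper606's `exists_theta` with the two cases kept apart;
* `data` : degree and value at an involution in terms of an orbit of characters of the complement;
* `sol` : the arithmetic of the character table of the complement.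
-/

set_option autoImplicit false
set_option linter.unusedSectionVars false

open Cfsg Subgroup
open scoped ComplexConjugate

namespace Cfsg.Agent.H792.M23.Loc

open Cfsg.Agent.Characters.Core
open Cfsg.Agent.SmallSimple.ThetaSetup Cfsg.Agent.SmallSimple.ThetaOrtho
open Cfsg.Agent.SmallSimple.TheoremC Cfsg.Agent.SmallSimple.TheoremCCor
open Cfsg.Agent.SmallSimple.PrimeDual Cfsg.Agent.SmallSimple.ThetaCount
open Cfsg.Agent.SmallSimple.PrimeLocal
open Cfsg.Agent.H653.Sieve
open Cfsg.Agent.SmallSimple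
open Cfsg.Agent.H606.OreM.Block Cfsg.Agent.H606.OreM.Exact

universe u

/-- **A real exceptional character**: the number of the linear characters is even. -/
theorem even_of_real {Q : Type u} [Group Q] [Finite Q] {p : ℕ} (hp : p.Prime) (hp2 : p ≠ 2) (hQ : Nat.card Q = p)
    {S : Finset (Q →* ℂˣ)} (h1 : 1 ∉ S)
    (hS : ∀ x : Q, x ≠ 1 → conj (∑ l ∈ S, ((l x : ℂˣ) : ℂ)) = ∑ l ∈ S, ((l x : ℂˣ) : ℂ)) : Even S.card := by
  classical
  have := finite_dual hp hQ
  have := Fintype.ofFinite (Q →* ℂˣ)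
  have hc : ∀ (l : Q →* ℂˣ) (x : Q), conj ((l x : ℂˣ) : ℂ) = ((l⁻¹ x : ℂˣ) : ℂ) := by
    intro l x
    rw [conj_hom_apply, MonoidHom.inv_apply, map_inv]
  let b : (Q →* ℂˣ) → ℂ := fun l => (if l ∈ S then 1 else 0) - (if l⁻¹ ∈ S then 1 else 0)
  have hb : ∀ x : Q, x ≠ 1 → ∑ l : Q →* ℂˣ, b l * conj ((l x : ℂˣ) : ℂ) = 0 := by
    intro x hx
    have e1 : ∑ l : Q →* ℂˣ, (if l ∈ S then (1 : ℂ) else 0) * conj ((l x : ℂˣ) : ℂ) =
        conj (∑ l ∈ S, ((l x : ℂˣ) : ℂ)) := by
      rw [map_sum]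
      simp only [ite_mul, one_mul, zero_mul]
      rw [Finset.sum_ite_mem, Finset.univ_inter]
    have e2 : ∑ l : Q →* ℂˣ, (if l⁻¹ ∈ S then (1 : ℂ) else 0) * conj ((l x : ℂˣ) : ℂ) =
        ∑ l ∈ S, ((l x : ℂˣ) : ℂ) := by
      rw [← Equiv.sum_comp (Equiv.inv (Q →* ℂˣ))]
      simp only [Equiv.inv_apply, inv_inv, ite_mul, one_mul, zero_mul]
      rw [Finset.sum_ite_mem, Finset.univ_inter]
      refine Finset.sum_congr rfl fun l _ => ?_
      rw [hc, inv_inv]
    simp only [b, sub_mul, Finset.sum_sub_distrib]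
    rw [e1, e2, hS x hx, sub_self]
  have hconst := eq_of_sum_eq_zero b hb
  have hb1 : b 1 = 0 := by
    have e : (1 : Q →* ℂˣ)⁻¹ = 1 := by ext x; simp
    have h2 : (1 : Q →* ℂˣ)⁻¹ ∉ S := fun h => h1 (by rwa [e] at h)
    show (if (1 : Q →* ℂˣ) ∈ S then (1 : ℂ) else 0) - (if (1 : Q →* ℂˣ)⁻¹ ∈ S then 1 else 0) = 0
    rw [if_neg h1, if_neg h2, sub_zero]
  have hinv : ∀ l ∈ S, l⁻¹ ∈ S := by
    intro l hl
    by_contra h
    have h2 := hconst l 1
    rw [hb1] at h2
    simp only [b, if_pos hl, if_neg h, sub_zero] at h2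
    exact one_ne_zero h2
  have hz : ∑ l ∈ S, (1 : ZMod 2) = 0 := by
    refine Finset.sum_involution (fun l _ => l⁻¹) (fun l _ => by decide) (fun l hl _ h => ?_) (fun l hl => hinv l hl)
      (fun l _ => inv_inv l)
    -- `l⁻¹ = l` is impossible
    have hl1 : l ≠ 1 := fun h' => h1 (h' ▸ hl)
    have hinj := injective_of_ne_one hp hQ hl1
    have : Fact p.Prime := ⟨hp⟩
    obtain ⟨x, hx⟩ : ∃ x : Q, x ≠ 1 := by
      have : Nontrivial Q := by
        rw [← Finite.one_lt_card_iff_nontrivial, hQ]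
        exact hp.one_lt
      exact exists_ne 1
    have h2 : l (x * x) = 1 := by
      rw [map_mul]
      have h3 : (l⁻¹ : Q →* ℂˣ) x = l x := by rw [h]
      rw [MonoidHom.inv_apply] at h3
      exact (inv_eq_iff_mul_eq_one.1 h3)
    have h3 : x * x = 1 := hinj (by rw [h2, map_one])
    have h4 : orderOf x ∣ 2 := orderOf_dvd_of_pow_eq_one (by rw [pow_two, h3])
    have h5 : orderOf x ∣ p := by rw [← hQ]; exact orderOf_dvd_natCard x
    rcases (Nat.dvd_prime hp).1 h5 with h6 | h6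
    · exact hx (orderOf_eq_one_iff.1 h6)
    · rw [h6] at h4
      exact hp2 ((Nat.prime_dvd_prime_iff_eq hp Nat.prime_two).1 h4)
  rw [Finset.sum_const, nsmul_eq_mul, mul_one] at hz
  exact (ZMod.natCast_eq_zero_iff_even).1 hz

variable {G : Type u} [Group G] [Finite G] {p : ℕ} [hp : Fact p.Prime] {P : Sylow p G} {K : Subgroup G}

/-- `part` of a real character over an invariant `θ` is real -/
theorem part_real (hK : IsComp p (P : Subgroup G) K) (hP : Nat.card P = p) {θ : IrrCharacter K}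
    (hθ : (orb P K (θ : K → ℂ)).card = 1) {χ : IrrCharacter G} (hχ : χ ∈ Over P (θ : K → ℂ))
    (hr : ∀ g : G, conj ((χ : G → ℂ) g) = (χ : G → ℂ) g) (x : P) :
    conj (part (θ : K → ℂ) (χ : G → ℂ) x) = part (θ : K → ℂ) (χ : G → ℂ) x := by
  classical
  have := Fintype.ofFinite K
  have hconj : ∀ θ' : IrrCharacter K, ∀ z : G, conj (part (θ' : K → ℂ) (χ : G → ℂ) z) =
      part (fun k => conj ((θ' : K → ℂ) k)) (χ : G → ℂ) z := by
    intro θ' z
    rw [part_eq, part_eq, map_mul, map_inv₀, Complex.conj_natCast, map_sum]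
    congr 1
    refine Finset.sum_congr rfl fun k _ => ?_
    rw [map_mul, hr, Complex.conj_conj]
  let θc : IrrCharacter K := ⟨fun k => conj ((θ : K → ℂ) k), isIrr_conj θ.2⟩
  -- `χ` is over the conjugate
  have h1 : θc ∈ orb P K (θ : K → ℂ) := by
    by_contra h
    obtain ⟨y, hy, hy0⟩ := hχ
    have h2 := part_eq_zero_of_not_mem_orb hK hP θ.2 (χ := χ) ⟨y, hy, hy0⟩ h hy
    apply hy0
    have h3 := hconj θ (y : G)
    have h4 : part (fun k => conj ((θ : K → ℂ) k)) (χ : G → ℂ) (y : G) = 0 := h2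
    rw [h4] at h3
    exact (map_eq_zero _).1 h3
  have h2 : θ ∈ orb P K (θ : K → ℂ) := mem_orb.2 ⟨1, one_mem _, tw_one _⟩
  have h3 : θc = θ := Finset.card_le_one.1 hθ.le _ h1 _ h2
  rw [hconj]
  have h4 : (fun k => conj ((θ : K → ℂ) k)) = (θ : K → ℂ) := congrArg Subtype.val h3
  rw [h4]

/-- **The local data** (helper606's theorem with the two cases kept apart). -/
theorem exists_theta [Fintype (IrrCharacter G)] (hK : IsComp p (P : Subgroup G) K) (hP : Nat.card P = p) {e t : ℕ}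
    (he : (centralizer ((P : Subgroup G) : Set G)).relIndex (normalizer ((P : Subgroup G) : Set G)) = e)
    (ht : e * t = p - 1) (χ : IrrCharacter G) (hχ : ¬ p ∣ charDegree (χ : G → ℂ)) :
    ∃ (θ : IrrCharacter K) (m n : ℕ), m = (orb P K (θ : K → ℂ)).card ∧ (θ : K → ℂ) 1 = n ∧ 0 < m ∧ 0 < n ∧ m ∣ e ∧
      n ∣ Nat.card K ∧
      (((p : ℤ) ∣ (charDegree (χ : G → ℂ) : ℤ) - m * n ∨ (p : ℤ) ∣ (charDegree (χ : G → ℂ) : ℤ) + m * n) ∨
        ((p ≠ 2 → (∀ g : G, conj ((χ : G → ℂ) g) = (χ : G → ℂ) g) → m = 1 → Even e) ∧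
          ((p : ℤ) ∣ (charDegree (χ : G → ℂ) : ℤ) - e * n ∨ (p : ℤ) ∣ (charDegree (χ : G → ℂ) : ℤ) + e * n))) ∧
      ∃ x : P, x ≠ 1 ∧ ∀ y : AlgInt, part (θ : K → ℂ) (χ : G → ℂ) x ≠ (p : ℂ) * y := by
  classical
  have hPf := Fintype.ofFinite (P : Subgroup G)
  have hp1 := hp.out.one_lt
  -- the degree modulo `p`
  have hdeg : ∀ w : ℤ, (e : ℂ) * w = csum (P : Subgroup G) (χ : G → ℂ) →
      (p : ℤ) ∣ (charDegree (χ : G → ℂ) : ℤ) + e * w := by
    intro w hw
    obtain ⟨m, hm⟩ := SmallSimple.TheoremBCor.exists_sum_eq (isIrr_isCharacter χ.2) (P : Subgroup G)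
    rw [csum_eq, hm, deg_cast] at hw
    refine ⟨m, ?_⟩
    have h2 : (((charDegree (χ : G → ℂ) : ℤ) + e * w : ℤ) : ℂ) = ((p * m : ℤ) : ℂ) := by
      have h3 : (Nat.card (P : Subgroup G) : ℂ) = p := by
        have : Nat.card (P : Subgroup G) = p := hP
        exact_mod_cast this
      rw [h3] at hw
      have h4 : ((deg χ : ℕ) : ℂ) = (charDegree (χ : G → ℂ) : ℂ) := rfl
      rw [h4] at hw
      push_cast
      linear_combination hw
    exact_mod_cast h2
  have hv : ∃ g : G, p ∣ orderOf g ∧ (χ : G → ℂ) g ≠ 0 := by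
    by_contra hv
    push Not at hv
    have h0 : csum (P : Subgroup G) (χ : G → ℂ) = 0 := by
      rw [csum_eq_erase, Finset.sum_eq_zero]
      intro x hx
      apply hv
      have hx1 : (x : G) ≠ 1 := fun e => (Finset.mem_erase.1 hx).1 (Subtype.ext e)
      rw [Blocks.CyclicOrtho.orderOf_eq P hP x.2 hx1]
    have h1 := hdeg 0 (by rw [h0]; simp)
    rw [mul_zero, add_zero] at h1
    exact hχ (by exact_mod_cast h1)
  obtain ⟨θ, hθ⟩ := exists_mem_Over hK hP (χ := χ) hv
  set m := (orb P K (θ : K → ℂ)).card with hm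
  obtain ⟨n, hn0, hn1⟩ := isIrr_apply_one θ.2
  have hn : (θ : K → ℂ) 1 = n := hn1
  have hdegθ : charDegree (θ : K → ℂ) = n := by
    unfold charDegree
    rw [hn]; simp
  have hcm := card_stabAct_mul_card_orb hK hP θ.2
  rw [he, ← hm] at hcm
  set eθ := Nat.card (stabAct hK (θ : K → ℂ)) with heθ
  have het : eθ * (m * t) = p - 1 := by rw [← mul_assoc, hcm, ht]
  obtain ⟨NE, X, ε, d, S, hB, -, hNE, hX, hε, hd, hval, hvalX, -, -, -⟩ := theoremC hK hP θ.2 heθ.symm het
  have hm0 : 0 < m := by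
    rcases Nat.eq_zero_or_pos m with h | h
    · rw [h, zero_mul, mul_zero] at het
      omega
    · exact h
  have he0 : 0 < eθ := by
    rcases Nat.eq_zero_or_pos eθ with h | h
    · rw [h, zero_mul] at het
      omega
    · exact h
  have hnK : n ∣ Nat.card K := by
    rw [← hdegθ]
    exact Blocks.Knorr.charDegree_dvd θ.2
  have hpp : (p : ℤ) = e * t + 1 := by
    have h3 : p = e * t + 1 := by omega
    exact_mod_cast h3
  have hcsum : csum (P : Subgroup G) (χ : G → ℂ) =
      ∑ x ∈ (Finset.univ : Finset (P : Subgroup G)).erase 1, (χ : G → ℂ) x := csum_eq_erase _ _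
  have hcard : ((Finset.univ : Finset (P : Subgroup G)).erase 1).card = p - 1 := by
    rw [Finset.card_erase_of_mem (Finset.mem_univ _), Finset.card_univ, ← Nat.card_eq_fintype_card]
    exact congrArg (· - 1) hP
  rcases (hB χ).1 hθ with h | h
  · -- nonexceptional
    have hw : (e : ℂ) * ((ε χ * (t * m * n) : ℤ) : ℂ) = csum (P : Subgroup G) (χ : G → ℂ) := by
      rw [hcsum, Finset.sum_congr rfl (g := fun _ => (ε χ : ℂ) * (m * n))]
      · rw [Finset.sum_const, hcard, nsmul_eq_mul, ← ht]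
        push_cast
        ring
      · intro x hx
        have hx1 : x ≠ 1 := (Finset.mem_erase.1 hx).1
        have h2 := apply_of_const hK hP θ.2 hθ (hval χ h) hx1 (1 : K)
        rw [sum_orb_one hK, ← hm, hn] at h2
        simpa using h2
    have h5 := hdeg _ hw
    refine ⟨θ, m, n, rfl, hn, hm0, hn0, ⟨eθ, by rw [← hcm, mul_comm]⟩, hnK, ?_, ?_⟩
    · rcases hε χ h with h6 | h6
      · left; left
        rw [h6] at h5
        have h7 : (charDegree (χ : G → ℂ) : ℤ) - m * n =
            ((charDegree (χ : G → ℂ) : ℤ) + e * (1 * (t * m * n))) - p * (m * n) := by rw [hpp]; ring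
        rw [h7]
        exact dvd_sub h5 (dvd_mul_right _ _)
      · left; right
        rw [h6] at h5
        have h7 : (charDegree (χ : G → ℂ) : ℤ) + m * n =
            ((charDegree (χ : G → ℂ) : ℤ) + e * (-1 * (t * m * n))) + p * (m * n) := by rw [hpp]; ring
        rw [h7]
        exact dvd_add h5 (dvd_mul_right _ _)
    · obtain ⟨x, hx⟩ : ∃ x : P, x ≠ 1 := by
        obtain ⟨x, hx, hx1⟩ := exists_ne_one (P := (P : Subgroup G)) hP
        exact ⟨⟨x, hx⟩, fun h => hx1 (congrArg Subtype.val h)⟩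
      refine ⟨x, hx, fun y hy => ?_⟩
      rw [hval χ h x hx] at hy
      have h8 := dvd_of_algInt hy
      rcases hε χ h with h6 | h6
      · rw [h6] at h8
        have := Int.eq_one_of_dvd_one (by positivity) h8
        have h9 : p = 1 := by exact_mod_cast this
        omega
      · rw [h6] at h8
        have := Int.eq_one_of_dvd_one (by positivity) ((dvd_neg).1 h8)
        have h9 : p = 1 := by exact_mod_cast this
        omega
  · -- exceptional
    obtain ⟨hSc, hS1, -, hSv⟩ := hvalX χ h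
    -- the sum of a part
    have hpart : ∑ x ∈ (Finset.univ : Finset (P : Subgroup G)).erase 1, part (θ : K → ℂ) (χ : G → ℂ) x =
        -(d : ℂ) * eθ := by
      have h2 := SmallSimple.TheoremBCor.sum_exc_off (f := fun x : (P : Subgroup G) => part (θ : K → ℂ) (χ : G → ℂ) x)
        (d := (d : ℂ)) hS1 hSv
      rw [hSc] at h2
      rw [← Finset.add_sum_erase _ _ (Finset.mem_univ (1 : (P : Subgroup G)))] at h2
      linear_combination h2
    have horb : ∀ θ' ∈ orb P K (θ : K → ℂ),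
        ∑ x ∈ (Finset.univ : Finset (P : Subgroup G)).erase 1, part (θ' : K → ℂ) (χ : G → ℂ) x = -(d : ℂ) * eθ := by
      intro θ' hθ'
      obtain ⟨g, hg, hgθ⟩ := mem_orb.1 hθ'
      rw [← hpart, ← hgθ]
      have h3 : ∀ x : (P : Subgroup G), part (tw (θ : K → ℂ) g) (χ : G → ℂ) x =
          part (θ : K → ℂ) (χ : G → ℂ) (cP hg x : (P : Subgroup G)) := by
        intro x
        rw [← part_conj hK _ (isIrr_isClassFunction χ.2) hg, coe_cP]
      rw [Finset.sum_congr rfl fun x _ => h3 x]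
      refine Finset.sum_bij (fun x _ => cP hg x) ?_ ?_ ?_ ?_
      · intro x hx
        rw [Finset.mem_erase] at hx ⊢
        refine ⟨fun h4 => hx.1 ?_, Finset.mem_univ _⟩
        exact (MulEquiv.map_eq_one_iff (cP hg)).1 h4
      · intro x _ y _ h4
        exact (cP hg).injective h4
      · intro y hy
        rw [Finset.mem_erase] at hy
        refine ⟨(cP hg).symm y, ?_, by simp⟩
        rw [Finset.mem_erase]
        refine ⟨fun h4 => hy.1 ?_, Finset.mem_univ _⟩
        have h5 := congrArg (cP hg) h4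
        rwa [MulEquiv.apply_symm_apply, map_one] at h5
      · intro x _
        rfl
    have hw : (e : ℂ) * ((-d * n : ℤ) : ℂ) = csum (P : Subgroup G) (χ : G → ℂ) := by
      rw [hcsum]
      have h2 : ∀ x ∈ (Finset.univ : Finset (P : Subgroup G)).erase 1, (χ : G → ℂ) x =
          ∑ θ' ∈ orb P K (θ : K → ℂ), part (θ' : K → ℂ) (χ : G → ℂ) x * n := by
        intro x hx
        have hx1 : x ≠ 1 := (Finset.mem_erase.1 hx).1
        have h3 := apply_mul_orb hK hP θ.2 hθ hx1 (1 : K)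
        rw [Subgroup.coe_one, mul_one] at h3
        rw [h3]
        exact Finset.sum_congr rfl fun θ' h4 => by rw [orb_apply_one hK h4, hn]
      rw [Finset.sum_congr rfl h2, Finset.sum_comm]
      have h3 : ∀ θ' ∈ orb P K (θ : K → ℂ),
          ∑ x ∈ (Finset.univ : Finset (P : Subgroup G)).erase 1, part (θ' : K → ℂ) (χ : G → ℂ) x * (n : ℂ) =
            -(d : ℂ) * eθ * n := by
        intro θ' h4
        rw [← Finset.sum_mul, horb θ' h4]
      rw [Finset.sum_congr rfl h3, Finset.sum_const, ← hm, nsmul_eq_mul, ← hcm]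
      push_cast
      ring
    have h5 := hdeg _ hw
    refine ⟨θ, m, n, rfl, hn, hm0, hn0, ⟨eθ, by rw [← hcm, mul_comm]⟩, hnK, ?_, ?_⟩
    · right
      refine ⟨fun hp2 hr hm1 => ?_, ?_⟩
      · rw [← hcm, hm1, mul_one, ← hSc]
        refine even_of_real hp.out hp2 hP hS1 fun x hx => ?_
        have h8 := part_real hK hP (by rw [← hm, hm1]) hθ hr x
        rw [hSv x hx, map_mul, map_intCast] at h8
        have hd0 : (d : ℂ) ≠ 0 := by
          rcases hd with rfl | rfl
          · norm_num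
          · norm_num
        exact mul_left_cancel₀ hd0 h8
      rcases hd with rfl | rfl
      · left
        have h7 : (charDegree (χ : G → ℂ) : ℤ) - e * n = (charDegree (χ : G → ℂ) : ℤ) + e * (-1 * n) := by ring
        rw [h7]
        exact h5
      · right
        have h7 : (charDegree (χ : G → ℂ) : ℤ) + e * n = (charDegree (χ : G → ℂ) : ℤ) + e * (-(-1) * n) := by ring
        rw [h7]
        exact h5
    · by_contra hcon
      push Not at hcon
      choose y hy using hcon
      have h6 : ((-d * eθ : ℤ) : ℂ) = (p : ℂ) * ((∑ x ∈ (Finset.univ : Finset (P : Subgroup G)).erase 1,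
          (if hx : x ≠ 1 then y x hx else 0) : AlgInt) : ℂ) := by
        have h7 : ((∑ x ∈ (Finset.univ : Finset (P : Subgroup G)).erase 1,
          (if hx : x ≠ 1 then y x hx else 0) : AlgInt) : ℂ) = ∑ x ∈ (Finset.univ : Finset (P : Subgroup G)).erase 1,
          ((if hx : x ≠ 1 then y x hx else 0 : AlgInt) : ℂ) := by
          exact map_sum (AlgInt.val) _ _
        rw [h7, Finset.mul_sum]
        have h8 : ((-d * eθ : ℤ) : ℂ) = -(d : ℂ) * eθ := by push_cast; ring
        rw [h8, ← hpart]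
        refine Finset.sum_congr rfl fun x hx => ?_
        have hx1 : x ≠ 1 := (Finset.mem_erase.1 hx).1
        rw [dif_pos hx1]
        exact hy x hx1
      have h8 := dvd_of_algInt h6
      have h9 : (p : ℤ) ∣ eθ := by
        rcases hd with rfl | rfl
        · rw [show (-1 * (eθ : ℤ)) = -(eθ : ℤ) by ring] at h8
          exact (dvd_neg).1 h8
        · simpa using h8
      have h10 : p ∣ eθ := by exact_mod_cast h9
      have h11 := Nat.le_of_dvd he0 h10
      have h12 : eθ ≤ eθ * (m * t) := by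
        apply Nat.le_mul_of_pos_right
        rcases Nat.eq_zero_or_pos (m * t) with h | h
        · rw [h, mul_zero] at het
          omega
        · exact h
      omega



/-- The two cases for the degree. -/
def Cases (p m n e : ℕ) (d : ℤ) : Prop :=
  ((p : ℤ) ∣ d - m * n ∨ (p : ℤ) ∣ d + m * n) ∨
    ((m = 1 → Even e) ∧ ((p : ℤ) ∣ d - e * n ∨ (p : ℤ) ∣ d + e * n))

/-- **The degrees of the real characters.** -/
theorem residue [IsSimpleGroup G] (hG : ¬ IsMulCommutative G) {N : ℕ}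
    (hN : Nat.card G = N) {x : G} (hx : orderOf x = p) {k : ℕ} (hc : Nat.card (centralizer ({x} : Set G)) = p * k)
    (e t : ℕ) (hnum : eOK N p k e t = true) (hp2 : p ≠ 2) (χ : IrrCharacter G)
    (hr : ∀ g : G, conj ((χ : G → ℂ) g) = (χ : G → ℂ) g) (hχ : ¬ p ∣ charDegree (χ : G → ℂ)) :
    ∃ m n : ℕ, 0 < m ∧ 0 < n ∧ m ∣ e ∧ n ∣ k ∧ m * (n * n) ≤ k ∧ (n ≠ 1 ∨ m ≠ 1 → m * (n * n) + 1 ≤ k) ∧
      Cases p m n e (charDegree (χ : G → ℂ)) := by
  classical
  have := finite_irr (G := G)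
  have := Fintype.ofFinite (IrrCharacter G)
  obtain ⟨P, K, hP, hPx, hK, hKk, ht, hrel⟩ := exists_data hG hN hx hc e t hnum
  obtain ⟨θ, m, n, hm, hn, hm0, hn0, hme, hnk, hres, -⟩ := exists_theta hK hP hrel ht χ hχ
  have hsq := orb_sq_le hK θ.2
  have hdeg : charDegree (θ : K → ℂ) = n := by
    unfold charDegree
    rw [hn]; simp
  rw [hdeg, hKk, ← hm] at hsq
  refine ⟨m, n, hm0, hn0, hme, by rw [← hKk]; exact hnk, hsq.1, hsq.2, ?_⟩
  rcases hres with h | ⟨h1, h2⟩
  · exact Or.inl h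
  · exact Or.inr ⟨h1 hp2 hr, h2⟩

/-- **The degree and the value at an involution of a real character.** -/
theorem data [IsSimpleGroup G] (hG : ¬ IsMulCommutative G) {N : ℕ}
    (hN : Nat.card G = N) {x : G} (hx : orderOf x = p) {k : ℕ} (hc : Nat.card (centralizer ({x} : Set G)) = p * k)
    (e f : ℕ) (hnum : eOK N p k e f = true) {t : G} (ht : t * t = 1) (hp2 : p ≠ 2) {c s idx : ℕ}
    (hidx : (centralizer ({t} : Set G)).index = idx) (hcs : s * c = k)
    (hT : ∀ u : G, IsConj t u → u * x = x * u →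
      Nat.card (centralizer ({x} : Set G) ⊓ centralizer ({u} : Set G) : Subgroup G) = p * c)
    (hs : sOK p k s idx = true) (χ : IrrCharacter G) (hr : ∀ g : G, conj ((χ : G → ℂ) g) = (χ : G → ℂ) g)
    (hχ : ¬ p ∣ charDegree (χ : G → ℂ)) {w : ℤ}
    (hw : ((centralizer ({t} : Set G)).index : ℂ) * (χ : G → ℂ) t / (χ : G → ℂ) 1 = w) :
    ∃ (K : Subgroup G) (O : Finset (IrrCharacter K)) (t0 : K) (m n : ℕ) (τ : ℤ),
      IsComp p (zpowers x) K ∧ Nat.card K = k ∧ t0 * t0 = 1 ∧ Nat.card (centralizer ({t0} : Set K)) = c ∧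
      O.Nonempty ∧ O.card = m ∧ (∀ θ ∈ O, (θ : K → ℂ) 1 = n ∧ (θ : K → ℂ) t0 = τ) ∧
      Pair k c e m n τ ∧ Cases p m n e (charDegree (χ : G → ℂ)) ∧ (p : ℤ) ∣ n * w - s * τ := by
  classical
  have := finite_irr (G := G)
  have := Fintype.ofFinite (IrrCharacter G)
  obtain ⟨P, K, hP, hPx, hK, hKk, hef, hrel⟩ := exists_data hG hN hx hc e f hnum
  have := finite_irr (G := K)
  have := Fintype.ofFinite (IrrCharacter K)
  have hKf := Fintype.ofFinite K
  have hto : ¬ p ∣ orderOf t := by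
    intro h
    have h1 : orderOf t ∣ 2 := orderOf_dvd_of_pow_eq_one (by rw [pow_two, ht])
    exact hp2 ((Nat.prime_dvd_prime_iff_eq hp.out Nat.prime_two).1 (h.trans h1))
  obtain ⟨t0, ht0, hS, hct0, hit0⟩ := class_single hK hP hPx hKk hcs hto hidx hT hs
  obtain ⟨θ, m, n, hm, hn, hm0, hn0, hme, hnk, hres, x', -, hnd⟩ := exists_theta hK hP hrel hef χ hχ
  have htt : t0 * t0 = 1 := by
    obtain ⟨g, hg⟩ := isConj_iff.1 ht0
    apply Subtype.ext
    show (t0 : G) * t0 = 1
    rw [← hg]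
    calc g * t * g⁻¹ * (g * t * g⁻¹) = g * (t * t) * g⁻¹ := by group
      _ = 1 := by rw [ht]; group
  obtain ⟨τ, hτ, hpar⟩ := value_invol θ htt hn
  have hcon := central_congr hK hP χ θ hnd hto hS hw hτ hn
  rw [hit0] at hcon
  have hres' : Cases p m n e (charDegree (χ : G → ℂ)) := by
    rcases hres with h | ⟨h1, h2⟩
    · exact Or.inl h
    · exact Or.inr ⟨h1 hp2 hr, h2⟩
  have hd : ∀ θ' ∈ orb P K (θ : K → ℂ), (θ' : K → ℂ) 1 = n ∧ (θ' : K → ℂ) t0 = τ := by
    intro θ' h
    refine ⟨by rw [orb_apply_one hK h, hn], ?_⟩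
    obtain ⟨g, hg, h'⟩ := mem_orb.1 h
    rw [← h', tw_apply hK _ hg, ← hτ]
    have h4 : IsConj t ((⟨g * t0 * g⁻¹, conj_mem hK hg t0.2⟩ : K) : G) :=
      ht0.trans (isConj_iff.2 ⟨g, rfl⟩)
    obtain ⟨b, hb⟩ := isConj_iff.1 ((hS _).1 h4)
    rw [← hb, isIrr_isClassFunction θ.2]
  refine ⟨K, orb P K (θ : K → ℂ), t0, m, n, τ, by rw [← hPx]; exact hK, hKk, htt, hct0,
    ⟨θ, mem_orb.2 ⟨1, one_mem _, tw_one _⟩⟩, hm.symm, hd,
    ⟨hm0, hn0, hme, by rw [← hKk]; exact hnk, hpar, ?_⟩, hres', hcon⟩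
  -- the inequalities
  have hsq := orb_sq_le hK θ.2
  have hdeg : charDegree (θ : K → ℂ) = n := by
    unfold charDegree
    rw [hn]; simp
  rw [hdeg, hKk, ← hm] at hsq
  by_cases hθ1 : (θ : K → ℂ) = 1
  · left
    have h1 : n = 1 := by
      have : (n : ℂ) = 1 := by rw [← hn, hθ1]; simp
      exact_mod_cast this
    have h2 : τ = 1 := by
      have : (τ : ℂ) = 1 := by rw [← hτ, hθ1]; simp
      exact_mod_cast this
    have h3 : orb P K (θ : K → ℂ) = {θ} := by
      have := orb_of_stable (P := P) θ.2 (fun g hg => by rw [hθ1]; exact tw_one_char hK hg)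
      exact this
    exact ⟨by rw [hm, h3, Finset.card_singleton], h1, h2⟩
  · right
    let o : IrrCharacter K := ⟨1, isIrr_one⟩
    have ho : o ∉ orb P K (θ : K → ℂ) := by
      intro ho
      obtain ⟨g, hg, h⟩ := mem_orb.1 ho
      apply hθ1
      have h2 : tw (tw (θ : K → ℂ) g) g⁻¹ = θ := by
        rw [← tw_mul hK _ hg (inv_mem hg), mul_inv_cancel, tw_one]
      have h3 : tw (θ : K → ℂ) g = 1 := h
      rw [← h2, h3]
      exact tw_one_char hK (inv_mem hg)
    constructor
    · -- degrees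
      have hsum := SmallSimple.DegreeData.sum_sq (G := K)
      have hdd : ∀ θ' ∈ orb P K (θ : K → ℂ), charDegree (θ' : K → ℂ) = n := by
        intro θ' h
        rw [← hdeg]
        unfold charDegree
        rw [orb_apply_one hK h]
      have h2 : ∑ θ' ∈ insert o (orb P K (θ : K → ℂ)), charDegree (θ' : K → ℂ) ^ 2 ≤ Nat.card K := by
        rw [← hsum]
        exact Finset.sum_le_sum_of_subset (Finset.subset_univ _)
      rw [Finset.sum_insert ho, Finset.sum_congr rfl fun θ' h => by rw [hdd θ' h], Finset.sum_const, smul_eq_mul,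
        ← hm, hKk] at h2
      have hc' : charDegree (o : K → ℂ) = 1 := by
        unfold charDegree
        simp [o]
      rw [hc'] at h2
      nlinarith
    · -- values
      have h1 := S0145.sum_irr_mul_conj t0 t0
      rw [if_pos (IsConj.refl _), hct0] at h1
      have h2 : ∀ θ' : IrrCharacter K, ∃ r : ℝ, 0 ≤ r ∧ (θ' : K → ℂ) t0 * conj ((θ' : K → ℂ) t0) = r := by
        intro θ'
        exact ⟨Complex.normSq ((θ' : K → ℂ) t0), Complex.normSq_nonneg _, Complex.mul_conj _⟩
      choose r hr0 hr using h2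
      rw [Finset.sum_congr rfl fun θ' _ => hr θ', ← Complex.ofReal_sum] at h1
      have h3 : ∑ θ' : IrrCharacter K, r θ' = (c : ℝ) := by exact_mod_cast h1
      have h4 : ∑ θ' ∈ insert o (orb P K (θ : K → ℂ)), r θ' ≤ c := by
        rw [← h3]
        exact Finset.sum_le_sum_of_subset_of_nonneg (Finset.subset_univ _) fun θ' _ _ => hr0 θ'
      have h5 : ∀ θ' ∈ orb P K (θ : K → ℂ), r θ' = (τ : ℝ) * τ := by
        intro θ' h
        have h6 := hr θ'
        rw [(hd θ' h).2] at h6
        have h7 : ((τ : ℝ) * τ : ℂ) = r θ' := by rw [← h6]; simp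
        exact_mod_cast h7.symm
      have h6 : r o = 1 := by
        have h7 := hr o
        have h8 : (o : K → ℂ) t0 = 1 := rfl
        rw [h8] at h7
        have h9 : ((1 : ℝ) : ℂ) = r o := by rw [← h7]; simp
        exact_mod_cast h9.symm
      rw [Finset.sum_insert ho, Finset.sum_congr rfl h5, Finset.sum_const, h6, nsmul_eq_mul, ← hm] at h4
      have h7 : (m : ℤ) * (τ * τ) + 1 ≤ (c : ℤ) := by
        have : ((m : ℝ) * (τ * τ) + 1) ≤ c := by linarith
        exact_mod_cast this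
      exact h7

end Cfsg.Agent.H792.M23.Loc
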